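/-
Hall complement systems and system normalizers of finite solvable groups.
-/
import Mathlib
import Cfsg.Agent.Lib.Hall.Existence
import Cfsg.Agent.Lib.CoprimeAction.Basic
import Cfsg.Prelude.Def_SolvableStructure

set_option autoImplicit false

open scoped Pointwise

namespace CfsgLib.SolvableStructure

open CfsgLib.Hall

variable {G : Type*} [Group G] [Finite G]

theorem index_mul_of_coprime {A B : Subgroup G} (h : A.index.Coprime B.index) :
    (A ⊓ B).index = A.index * B.index := by
  refine Nat.dvd_antisymm ?_ (h.mul_dvd_of_dvd_of_dvd (Subgroup.index_dvd_of_le inf_le_left)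
    (Subgroup.index_dvd_of_le inf_le_right))
  have h1 := Subgroup.relIndex_mul_index (inf_le_left : A ⊓ B ≤ A)
  rw [Subgroup.inf_relIndex_left] at h1
  have h2 : B.index ∣ (A ⊓ B).index := Subgroup.index_dvd_of_le inf_le_right
  have hle : (A ⊓ B).index ≤ A.index * B.index := Subgroup.index_inf_le
  have hdvd : A.index * B.index ∣ (A ⊓ B).index :=
    h.mul_dvd_of_dvd_of_dvd (Subgroup.index_dvd_of_le inf_le_left) h2
  rw [le_antisymm hle (Nat.le_of_dvd (Nat.pos_of_ne_zero Subgroup.index_ne_zero_of_finite) hdvd)]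

/-- Subgroups of coprime index factorize the group. -/
theorem exists_mul_of_coprime_index {A B : Subgroup G} (h : A.index.Coprime B.index) (g : G) :
    ∃ a ∈ A, ∃ b ∈ B, g = a * b := by
  have hrel : B.relIndex A = B.index := by
    refine Nat.eq_of_mul_eq_mul_left (n := A.index) (Nat.pos_of_ne_zero Subgroup.index_ne_zero_of_finite) ?_
    rw [← index_mul_of_coprime h, mul_comm, ← Subgroup.inf_relIndex_left,
      Subgroup.relIndex_mul_index inf_le_left]
  let f : A ⧸ B.subgroupOf A → G ⧸ B :=
    Quotient.map' (fun a => (a : G)) fun a b hab => by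
      rw [QuotientGroup.leftRel_apply] at hab ⊢
      exact hab
  have hinj : Function.Injective f := by
    intro x y hxy
    induction x using QuotientGroup.induction_on with
    | H a =>
      induction y using QuotientGroup.induction_on with
      | H b =>
        have h' : ((a : G) : G ⧸ B) = ((b : G) : G ⧸ B) := hxy
        exact QuotientGroup.eq.mpr (QuotientGroup.eq.mp h' :)
  have hbij := (Nat.bijective_iff_injective_and_card f).mpr ⟨hinj, hrel⟩
  obtain ⟨x, hx⟩ := hbij.surjective (QuotientGroup.mk g)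
  induction x using QuotientGroup.induction_on with
  | H a => exact ⟨a, a.2, (a : G)⁻¹ * g, QuotientGroup.eq.mp hx, by simp⟩

theorem isPiNum_prime_pow {p : ℕ} (hp : p.Prime) (k : ℕ) : IsPiNum {p} (p ^ k) :=
  fun _ hq hd => (Nat.prime_dvd_prime_iff_eq hq hp).mp (hq.dvd_of_dvd_pow hd)

theorem isPiHall_of_index_eq {p : ℕ} (hp : p.Prime) {H : Subgroup G}
    (h : H.index = p ^ (Nat.card G).factorization p) : Cfsg.IsPiHall ({p}ᶜ : Set ℕ) H := by
  rw [isPiHall_iff, compl_compl, h]
  refine ⟨fun q hq hd hqp => ?_, isPiNum_prime_pow hp _⟩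
  obtain rfl : q = p := hqp
  have h1 := Nat.factorization_mul (a := Nat.card H) Nat.card_pos.ne' H.index_ne_zero_of_finite
  rw [H.card_mul_index, h, hq.factorization_pow] at h1
  have h2 := DFunLike.congr_fun h1 q
  rw [Finsupp.add_apply, Finsupp.single_eq_same] at h2
  have h3 := hq.factorization_pos_of_dvd Nat.card_pos.ne' hd
  omega

theorem index_eq_of_isPiHall {p : ℕ} (hp : p.Prime) {H : Subgroup G}
    (h : Cfsg.IsPiHall ({p}ᶜ : Set ℕ) H) : H.index = p ^ (Nat.card G).factorization p := by
  rw [isPiHall_iff, compl_compl] at h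
  refine eq_of_mul_eq_mul (π := {p}) (b := Nat.card H) (d := ordCompl[p] (Nat.card G)) ?_ h.2 h.1
    (isPiNum_prime_pow hp _) fun q hq hd hqp => ?_
  · rw [mul_comm, H.card_mul_index, Nat.ordProj_mul_ordCompl_eq_self]
  · obtain rfl : q = p := hqp
    exact Nat.not_dvd_ordCompl hp Nat.card_pos.ne' hd

variable {K L : Nat.Primes → Subgroup G}

theorem isPiNum_index_iInf (hK : Cfsg.IsComplementSystem K) (s : Finset Nat.Primes) :
    IsPiNum {q | ∃ r ∈ s, (r : ℕ) = q} (⨅ p ∈ s, K p).index ∧
      (⨅ p ∈ s, K p).index = ∏ p ∈ s, (p : ℕ) ^ (Nat.card G).factorization p := by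
  classical
  induction s using Finset.induction_on with
  | empty =>
    simp only [Finset.notMem_empty, iInf_false, iInf_top, Subgroup.index_top, Finset.prod_empty,
      and_true]
    exact isPiNum_one _
  | insert p s hp ih =>
    have hco : (K p).index.Coprime (⨅ q ∈ s, K q).index := by
      refine IsPiNum.coprime (π := {(p : ℕ)}) ((hK p).symm ▸ isPiNum_prime_pow p.2 _)
        fun q hq hd hqp => ?_
      obtain ⟨r, hr, hrq⟩ := ih.1 q hq hd
      exact hp ((Subtype.ext (hrq.trans hqp) : r = p) ▸ hr)
    rw [Finset.iInf_insert, index_mul_of_coprime hco, Finset.prod_insert hp, hK p, ← ih.2]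
    refine ⟨IsPiNum.mul (fun q hq hd => ⟨p, Finset.mem_insert_self _ _,
      ((Nat.prime_dvd_prime_iff_eq hq p.2).mp (hq.dvd_of_dvd_pow hd)).symm⟩) (fun q hq hd => ?_), rfl⟩
    obtain ⟨r, hr, hrq⟩ := ih.1 q hq hd
    exact ⟨r, Finset.mem_insert_of_mem hr, hrq⟩

theorem index_iInf_coprime (hK : Cfsg.IsComplementSystem K) {s : Finset Nat.Primes} {p : Nat.Primes}
    (hp : p ∉ s) (k : ℕ) : (⨅ q ∈ s, K q).index.Coprime ((p : ℕ) ^ k) := by
  refine (IsPiNum.coprime (π := {(p : ℕ)}) (isPiNum_prime_pow p.2 _) fun q hq hd hqp => ?_).symm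
  obtain ⟨r, hr, hrq⟩ := (isPiNum_index_iInf hK s).1 q hq hd
  exact hp ((Subtype.ext (hrq.trans hqp) : r = p) ▸ hr)

/-- The primes dividing the group order, as a finite set of `Nat.Primes`. -/
noncomputable def orderPrimes (G : Type*) [Group G] : Finset Nat.Primes :=
  (Nat.card G).primeFactors.subtype Nat.Prime

theorem eq_top_of_notMem (hK : Cfsg.IsComplementSystem K) {p : Nat.Primes}
    (hp : p ∉ orderPrimes G) : K p = ⊤ := by
  have h : ¬ (p : ℕ) ∣ Nat.card G := fun hd => hp (Finset.mem_subtype.mpr
    (Nat.mem_primeFactors.mpr ⟨p.2, hd, Nat.card_pos.ne'⟩))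
  rw [← Subgroup.index_eq_one, hK p, Nat.factorization_eq_zero_of_not_dvd h, pow_zero]

variable [Group.IsSolvable G]

theorem exists_conj_eq (hK : Cfsg.IsComplementSystem K) (hL : Cfsg.IsComplementSystem L) :
    ∃ g : G, ∀ p : Nat.Primes, MulAut.conj g • K p = L p := by
  classical
  have key : ∀ s : Finset Nat.Primes, ∃ g : G, ∀ p ∈ s, MulAut.conj g • K p = L p := by
    intro s
    induction s using Finset.induction_on with
    | empty => exact ⟨1, by simp⟩
    | insert p s hp ih =>
      obtain ⟨g, hg⟩ := ih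
      obtain ⟨y, hy⟩ := isPiHall_isConj (isPiHall_of_index_eq p.2 (hL p))
        (isPiHall_conj (isPiHall_of_index_eq p.2 (hK p)) g)
      obtain ⟨x, hx, l, hl, rfl⟩ := exists_mul_of_coprime_index (A := ⨅ q ∈ s, L q) (B := L p)
        (hL p ▸ index_iInf_coprime hL hp _) y
      refine ⟨x⁻¹ * g, fun q hq => ?_⟩
      rw [map_mul, mul_smul]
      rcases Finset.mem_insert.mp hq with rfl | hq
      · rw [← hy, map_mul, mul_smul, CfsgLib.CoprimeAction.conj_smul_eq_self.mpr
          (Subgroup.le_normalizer hl), map_inv, inv_smul_smul]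
      · rw [hg q hq]
        have hxq : x ∈ L q := (iInf₂_le q hq : (⨅ q ∈ s, L q) ≤ L q) hx
        exact CfsgLib.CoprimeAction.conj_smul_eq_self.mpr
          (inv_mem (Subgroup.le_normalizer hxq))
  obtain ⟨g, hg⟩ := key (orderPrimes G)
  refine ⟨g, fun p => ?_⟩
  by_cases hp : p ∈ orderPrimes G
  · exact hg p hp
  · rw [eq_top_of_notMem hK hp, eq_top_of_notMem hL hp]
    exact CfsgLib.CoprimeAction.conj_smul_eq_self.mpr (Subgroup.le_normalizer (Subgroup.mem_top g))

omit [Group.IsSolvable G] in
theorem isNilpotent_systemNormalizer (hK : Cfsg.IsComplementSystem K) :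
    Group.IsNilpotent (Cfsg.systemNormalizer K) := by
  classical
  refine ((Group.isNilpotent_of_finite_tfae (G := Cfsg.systemNormalizer K)).out 3 0).mp ?_
  intro p hp P
  let pp : Nat.Primes := ⟨p, hp.out⟩
  let T : Subgroup G := ⨅ q ∈ (orderPrimes G).erase pp, K q
  have hTcard : ¬ p ∣ T.index := fun hd => by
    obtain ⟨r, hr, hrp⟩ := (isPiNum_index_iInf hK _).1 p hp.out hd
    exact (Finset.mem_erase.mp hr).1 (Subtype.ext hrp)
  have hTp : IsPGroup p T := by
    obtain ⟨k, hk⟩ : ∃ k, Nat.card T = p ^ k := by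
      refine ⟨_, Nat.eq_prime_pow_of_unique_prime_dvd Nat.card_pos.ne' fun {q} hq hd => ?_⟩
      by_contra hqp
      let qq : Nat.Primes := ⟨q, hq⟩
      have hqq : qq ∈ (orderPrimes G).erase pp := Finset.mem_erase.mpr
        ⟨fun h => hqp (congrArg Subtype.val h), Finset.mem_subtype.mpr (Nat.mem_primeFactors.mpr
          ⟨hq, hd.trans (Subgroup.card_subgroup_dvd_card T), Nat.card_pos.ne'⟩)⟩
      have h1 : q ∣ Nat.card (K qq) :=
        hd.trans (Subgroup.card_dvd_of_le (iInf₂_le qq hqq))
      exact (isPiHall_iff.mp (isPiHall_of_index_eq hq (hK qq))).1 q hq h1 rfl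
    exact IsPGroup.of_card hk
  have hDT : Cfsg.systemNormalizer K ≤ Subgroup.normalizer (T : Set G) := by
    intro x hx
    refine CfsgLib.CoprimeAction.mem_normalizer_of_conj_mem fun y hy => ?_
    simp only [T, Subgroup.mem_iInf] at hy ⊢
    intro q hq
    exact CfsgLib.CoprimeAction.conj_mem
      (Subgroup.mem_iInf.mp hx q) (hy q hq)
  -- the Sylow subgroup lies in `T`
  have hPT : (P : Subgroup (Cfsg.systemNormalizer K)).map (Cfsg.systemNormalizer K).subtype ≤ T := by
    have hTmax := (hTp.toSylow hTcard).is_maximal'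
      (Q := T ⊔ (P : Subgroup (Cfsg.systemNormalizer K)).map (Cfsg.systemNormalizer K).subtype)
      (IsPGroup.to_sup_of_normal_left' hTp (P.isPGroup'.map _)
        ((Subgroup.map_subtype_le _).trans hDT)) le_sup_left
    exact le_sup_right.trans hTmax.le
  have heq : (P : Subgroup (Cfsg.systemNormalizer K)) = T.subgroupOf (Cfsg.systemNormalizer K) :=
    (P.is_maximal' (hTp.comap_of_injective _ (Cfsg.systemNormalizer K).subtype_injective)
      (fun x hx => hPT (Subgroup.mem_map_of_mem _ hx))).symm
  rw [heq]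
  exact ⟨fun x hx d => (CfsgLib.CoprimeAction.conj_mem (hDT d.2) (show (x : G) ∈ T from hx) :)⟩

omit [Group.IsSolvable G] in
theorem isComplementSystem_map (hK : Cfsg.IsComplementSystem K) (N : Subgroup G) [N.Normal] :
    Cfsg.IsComplementSystem (fun p => (K p).map (QuotientGroup.mk' N)) := fun p =>
  index_eq_of_isPiHall p.2
    (isPiHall_map (QuotientGroup.mk'_surjective N) (isPiHall_of_index_eq p.2 (hK p)))

theorem systemNormalizer_map (hK : Cfsg.IsComplementSystem K) (N : Subgroup G) [N.Normal] :
    Cfsg.systemNormalizer (fun p => (K p).map (QuotientGroup.mk' N)) =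
      (Cfsg.systemNormalizer K).map (QuotientGroup.mk' N) := by
  classical
  let q := QuotientGroup.mk' N
  refine le_antisymm (fun y hy => ?_) ?_
  · obtain ⟨g, rfl⟩ := QuotientGroup.mk'_surjective N y
    have hgM : ∀ p, g ∈ Subgroup.normalizer ((K p ⊔ N : Subgroup G) : Set G) := fun p => by
      refine CfsgLib.CoprimeAction.mem_normalizer_of_conj_mem fun x hx => ?_
      have hxq : q x ∈ (K p).map q := by
        have := Subgroup.mem_map_of_mem q hx
        rwa [Subgroup.map_sup, QuotientGroup.map_mk'_self, sup_bot_eq] at this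
      obtain ⟨k, hk, hke⟩ :=
        Subgroup.mem_map.mp (CfsgLib.CoprimeAction.conj_mem (Subgroup.mem_iInf.mp hy p) hxq)
      rw [← map_inv, ← map_mul, ← map_mul] at hke
      exact (show g * x * g⁻¹ = k * (k⁻¹ * (g * x * g⁻¹)) by simp) ▸
        Subgroup.mul_mem_sup hk (QuotientGroup.eq.mp hke)
    have key : ∀ s : Finset Nat.Primes, ∃ n ∈ N, ∀ p ∈ s,
        n * g ∈ Subgroup.normalizer (K p : Set G) := by
      intro s
      induction s using Finset.induction_on with
      | empty => exact ⟨1, N.one_mem, by simp⟩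
      | insert p s hp ih =>
        obtain ⟨n, hn, hng⟩ := ih
        let M : Subgroup G := K p ⊔ N
        have hhM : n * g ∈ Subgroup.normalizer (M : Set G) :=
          Subgroup.mul_mem _ (Subgroup.le_normalizer (le_sup_right (a := K p) hn)) (hgM p)
        have h1 : MulAut.conj (n * g) • K p ≤ M :=
          CfsgLib.CoprimeAction.conj_smul_le hhM le_sup_left
        have hP := isPiHall_of_index_eq p.2 (hK p)
        obtain ⟨m, hm⟩ := isPiHall_isConj (isPiHall_subgroupOf hP (le_sup_left : K p ≤ M))
          (isPiHall_subgroupOf (isPiHall_conj hP (n * g)) h1)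
        have hm' : MulAut.conj (m : G) • K p = MulAut.conj (n * g) • K p := by
          have h := congrArg (Subgroup.map M.subtype) hm
          rw [Subgroup.map_subgroupOf_eq_of_le h1] at h
          rw [← h]
          ext x
          constructor
          · intro hx
            have hmem : (m : G)⁻¹ * x * m ∈ K p := CfsgLib.CoprimeAction.mem_conj_iff.mp hx
            have hxM : x ∈ M := by
              have := M.mul_mem (M.mul_mem m.2 (le_sup_left (b := N) hmem)) (M.inv_mem m.2)
              simpa [mul_assoc] using this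
            exact ⟨⟨x, hxM⟩, CfsgLib.CoprimeAction.mem_conj_iff.mpr hmem, rfl⟩
          · rintro ⟨z, hz, rfl⟩
            exact CfsgLib.CoprimeAction.mem_conj_iff.mpr (CfsgLib.CoprimeAction.mem_conj_iff.mp hz :)
        obtain ⟨a, ha, b, hb, hab⟩ := Subgroup.mem_sup_of_normal_right.mp m.2
        -- `N = (N ∩ T) (N ∩ K p)` by coprime indices
        let T : Subgroup G := ⨅ r ∈ s, K r
        have hdvd : ∀ H : Subgroup G, (H.subgroupOf N).index ∣ H.index := fun H => by
          show H.relIndex N ∣ _
          have h2 := Subgroup.relIndex_mul_relIndex (H ⊓ N) H (H ⊔ N) inf_le_left le_sup_left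
          rw [← Subgroup.relIndex_mul_relIndex (H ⊓ N) N (H ⊔ N) inf_le_right le_sup_right,
            Subgroup.inf_relIndex_right, Subgroup.inf_relIndex_left, Subgroup.relIndex_sup_right,
            mul_comm] at h2
          rw [← Nat.eq_of_mul_eq_mul_right (Nat.pos_of_ne_zero
            (Subgroup.index_ne_zero_of_finite (H := N.subgroupOf H))) h2]
          exact Dvd.intro _ (Subgroup.relIndex_mul_index le_sup_left)
        have hco : (T.subgroupOf N).index.Coprime ((K p).subgroupOf N).index :=
          ((hK p ▸ index_iInf_coprime hK hp _ : T.index.Coprime (K p).index).coprime_dvd_left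
            (hdvd T)).coprime_dvd_right (hdvd (K p))
        obtain ⟨x, hx, z, hz, hxz⟩ := exists_mul_of_coprime_index hco
          (⟨a * b * a⁻¹, (inferInstance : N.Normal).conj_mem b hb a⟩ : N)
        have hma : (m : G) = x * ((z : G) * a) := by
          have h3 : a * b * a⁻¹ = (x : G) * z := congrArg Subtype.val hxz
          rw [← hab, show a * b = (a * b * a⁻¹) * a by simp, h3, mul_assoc]
        rw [hma, map_mul _ (x : G), mul_smul, CfsgLib.CoprimeAction.conj_smul_eq_self.mpr
          (Subgroup.le_normalizer ((K p).mul_mem (show (z : G) ∈ K p from hz) ha))] at hm'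
        refine ⟨(x : G)⁻¹ * n, N.mul_mem (N.inv_mem x.2) hn, fun r hr => ?_⟩
        rw [mul_assoc]
        rcases Finset.mem_insert.mp hr with rfl | hr
        · rw [← CfsgLib.CoprimeAction.conj_smul_eq_self, map_mul _ (x : G)⁻¹, mul_smul, ← hm',
            map_inv, inv_smul_smul]
        · have hxr : (x : G) ∈ K r := (iInf₂_le r hr : T ≤ K r) hx
          exact Subgroup.mul_mem _ (Subgroup.inv_mem _ (Subgroup.le_normalizer hxr)) (hng r hr)
    obtain ⟨n, hn, hng⟩ := key (orderPrimes G)
    refine ⟨n * g, Subgroup.mem_iInf.mpr fun p => ?_, ?_⟩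
    · by_cases hp : p ∈ orderPrimes G
      · exact hng p hp
      · rw [eq_top_of_notMem hK hp, Subgroup.normalizer_eq_top]; exact Subgroup.mem_top _
    · simp [(QuotientGroup.eq_one_iff n).mpr hn]
  · exact le_iInf fun p => (Subgroup.map_mono (iInf_le _ p)).trans (Subgroup.le_normalizer_map _)

theorem normalClosure_systemNormalizer (hK : Cfsg.IsComplementSystem K) :
    Subgroup.normalClosure ((Cfsg.systemNormalizer K : Subgroup G) : Set G) = ⊤ := by
  let C := Subgroup.normalClosure ((Cfsg.systemNormalizer K : Subgroup G) : Set G)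
  by_contra hC
  obtain ⟨M, hM⟩ : ∃ M, Maximal (fun M : Subgroup G => M.Normal ∧ C ≤ M ∧ M ≠ ⊤) M :=
    Set.Finite.exists_maximal (Set.toFinite _) ⟨C, Subgroup.normalClosure_normal, le_rfl, hC⟩
  obtain ⟨hMn, hCM, hMtop⟩ := hM.prop
  haveI := hMn
  let q := QuotientGroup.mk' M
  have hq : Function.Surjective q := QuotientGroup.mk'_surjective M
  haveI : Nontrivial (G ⧸ M) := by
    by_contra h
    rw [not_nontrivial_iff_subsingleton] at h
    exact hMtop (top_le_iff.mp fun g _ => (QuotientGroup.eq_one_iff g).mp (Subsingleton.elim _ _))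
  -- the quotient is abelian, so its system normalizer is everything
  have hab : commutator (G ⧸ M) = ⊥ := by
    have hlt : commutator (G ⧸ M) < ⊤ :=
      Group.IsSolvable.commutator_lt_of_ne_bot (bot_ne_top (α := Subgroup (G ⧸ M))).symm
    have hle : M ≤ (commutator (G ⧸ M)).comap q :=
      (QuotientGroup.ker_mk' M).ge.trans (MonoidHom.ker_le_comap _ _)
    have hne : (commutator (G ⧸ M)).comap q ≠ ⊤ := fun h => hlt.ne (by
      rw [← Subgroup.map_comap_eq_self_of_surjective hq (commutator (G ⧸ M)), h,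
        Subgroup.map_top_of_surjective q hq])
    have h := hM.eq_of_le ⟨(inferInstance : (commutator (G ⧸ M)).Normal).comap q, hCM.trans hle, hne⟩ hle
    rw [← Subgroup.map_comap_eq_self_of_surjective hq (commutator (G ⧸ M)), ← h,
      QuotientGroup.map_mk'_self]
  have htop : Cfsg.systemNormalizer (fun p => (K p).map q) = ⊤ := by
    refine top_le_iff.mp (le_iInf fun p x _ => ?_)
    refine Subgroup.centralizer_le_normalizer _ (Subgroup.mem_centralizer_iff.mpr fun y _ => ?_)
    rw [← commutatorElement_eq_one_iff_mul_comm, ← Subgroup.mem_bot, ← hab]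
    exact Subgroup.commutator_mem_commutator (Subgroup.mem_top y) (Subgroup.mem_top x)
  rw [systemNormalizer_map hK M] at htop
  refine hMtop (top_le_iff.mp fun g _ => ?_)
  obtain ⟨d, hd, he⟩ := Subgroup.mem_map.mp (htop ▸ Subgroup.mem_top (q g))
  simpa using M.mul_mem (hCM (Subgroup.subset_normalClosure hd)) (QuotientGroup.eq.mp he)

end CfsgLib.SolvableStructure
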